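import Mathlib
import Cfsg.Agent.S3224
import Cfsg.Agent.H103.ThreeP.Block

/-!
# All involutions fix one or three points: the two cases
-/

set_option autoImplicit false

open Cfsg

namespace Cfsg.Agent.H103.ThreeP

open MulAction Pointwise

universe u v

variable {G : Type u} [Group G] [Finite G] {Ω : Type v} [Finite Ω] [MulAction G Ω]

/-- `S` fixes exactly one point `α` and contains an involution whose centralizer in `S` has order four. -/
structure CaseB (S : Sylow 2 G) (α : Ω) : Prop where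
  fix : ∀ s ∈ (S : Subgroup G), s • α = α
  uniq : ∀ β : Ω, (∀ s ∈ (S : Subgroup G), s • β = β) → β = α
  four : ∃ t : (S : Subgroup G), orderOf t = 2 ∧ Nat.card (Subgroup.centralizer ({t} : Set (S : Subgroup G))) = 4
  two : ∃ t z : (S : Subgroup G), orderOf t = 2 ∧ orderOf z = 2 ∧ z ≠ t ∧ ∀ s, s * z = z * s

omit [Finite G] in
theorem exists_involution_pow {s : G} (h1 : s ≠ 1) (hs : ∃ k, orderOf s = 2 ^ k) :
    ∃ u ∈ Subgroup.zpowers s, orderOf u = 2 := by
  obtain ⟨k, hk⟩ := hs
  have hfin : Finite (Subgroup.zpowers s) := by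
    apply Nat.finite_of_card_ne_zero
    rw [Nat.card_zpowers, hk]
    positivity
  have h2 : 2 ∣ Nat.card (Subgroup.zpowers s) := by
    rw [Nat.card_zpowers, hk]
    apply dvd_pow_self
    rintro rfl
    rw [pow_zero, orderOf_eq_one_iff] at hk
    exact h1 hk
  obtain ⟨w, hw⟩ := exists_prime_orderOf_dvd_card' 2 h2
  exact ⟨w, w.2, by rw [Subgroup.orderOf_coe, hw]⟩

/-- The alternative. -/
theorem same_or_caseB (S : Sylow 2 G) (hS : (S : Subgroup G) ≠ ⊥) (hodd : Odd (Nat.card Ω)) {f : ℕ}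
    (hf : f = 1 ∨ f = 3) (hfix : ∀ b : G, orderOf b = 2 → (fixedBy Ω b).ncard = f) :
    ∃ α : Ω, (∀ s ∈ (S : Subgroup G), s • α = α) ∧
      ((∃ Δ : Set Ω, Same S Δ ∧ Δ.ncard = f) ∨ (f = 3 ∧ CaseB S α)) := by
  classical
  -- a fixed point of `S`
  obtain ⟨α, hα⟩ : (fixedPoints (S : Subgroup G) Ω).Nonempty := by
    apply S.isPGroup'.nonempty_fixed_point_of_prime_not_dvd_card
    intro h
    exact (Nat.not_even_iff_odd.mpr hodd) (even_iff_two_dvd.mpr h)
  have hα' : ∀ s ∈ (S : Subgroup G), s • α = α := fun s hs => hα ⟨s, hs⟩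
  refine ⟨α, hα', ?_⟩
  -- a central involution
  have hnt : Nontrivial (S : Subgroup G) := (Subgroup.nontrivial_iff_ne_bot _).mpr hS
  have hcn := S.isPGroup'.center_nontrivial
  obtain ⟨z0, hz0⟩ := exists_ne (1 : Subgroup.center (S : Subgroup G))
  obtain ⟨z, hzc, hz2⟩ : ∃ z : (S : Subgroup G), z ∈ Subgroup.center (S : Subgroup G) ∧ orderOf z = 2 := by
    obtain ⟨u, hu, hu2⟩ := exists_involution_pow (s := (z0 : (S : Subgroup G)))
      (fun h => hz0 (Subtype.ext h)) ((IsPGroup.iff_orderOf.mp S.isPGroup') _)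
    refine ⟨u, ?_, hu2⟩
    have h1 : Subgroup.zpowers (z0 : (S : Subgroup G)) ≤ Subgroup.center (S : Subgroup G) := by
      rw [Subgroup.zpowers_le]; exact z0.2
    exact h1 hu
  have hz2' : orderOf (z : G) = 2 := by rw [Subgroup.orderOf_coe, hz2]
  by_cases hsame : ∀ t ∈ (S : Subgroup G), orderOf t = 2 → fixedBy Ω t = fixedBy Ω (z : G)
  · exact Or.inl ⟨fixedBy Ω (z : G), ⟨hsame, ⟨z, z.2, hz2'⟩⟩, hfix _ hz2'⟩
  right
  push Not at hsame
  obtain ⟨t, ht, ht2, hne⟩ := hsame
  set A : Set Ω := fixedBy Ω (z : G) with hA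
  set B : Set Ω := fixedBy Ω t with hB
  have hAc : A.ncard = f := hfix _ hz2'
  have hBc : B.ncard = f := hfix _ ht2
  have hαA : α ∈ A := hα' z z.2
  have hαB : α ∈ B := hα' t ht
  have hf3 : f = 3 := by
    rcases hf with rfl | h
    · exfalso
      apply hne
      rw [Set.ncard_eq_one] at hAc hBc
      obtain ⟨a, ha⟩ := hAc
      obtain ⟨b, hb⟩ := hBc
      rw [ha] at hαA
      rw [hb] at hαB
      rw [ha, hb, ← Set.mem_singleton_iff.mp hαA, ← Set.mem_singleton_iff.mp hαB]
    · exact h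
  refine ⟨hf3, ?_⟩
  -- elements of `S` commuting with an involution preserve its fixed points
  have hpres : ∀ (a b : G), a * b = b * a → ∀ β, β ∈ fixedBy Ω b → a • β ∈ fixedBy Ω b := by
    intro a b hab β hβ
    rw [mem_fixedBy] at hβ ⊢
    rw [smul_smul, ← hab, mul_smul, hβ]
  have hzcomm : ∀ s ∈ (S : Subgroup G), s * (z : G) = z * s := by
    intro s hs
    exact congrArg Subtype.val (Subgroup.mem_center_iff.mp hzc ⟨s, hs⟩)
  -- three points sets
  have hthree : ∀ (X : Set Ω) (a b : Ω), X.ncard = 3 → a ∈ X → b ∈ X → a ≠ b →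
      ∃ c ∈ X, c ≠ a ∧ c ≠ b ∧ ∀ d ∈ X, d = a ∨ d = b ∨ d = c := by
    intro X a b hX ha hb hab
    obtain ⟨x, y, w, hxy, hxw, hyw, rfl⟩ := Set.ncard_eq_three.mp hX
    simp only [Set.mem_insert_iff, Set.mem_singleton_iff] at ha hb
    rcases ha with rfl | rfl | rfl <;> rcases hb with rfl | rfl | rfl
    · exact absurd rfl hab
    · exact ⟨w, by simp, hxw.symm, hyw.symm, by rintro d (rfl | rfl | rfl) <;> simp⟩
    · exact ⟨y, by simp, hxy.symm, hyw, by rintro d (rfl | rfl | rfl) <;> simp⟩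
    · exact ⟨w, by simp, hyw.symm, hxw.symm, by rintro d (rfl | rfl | rfl) <;> simp⟩
    · exact absurd rfl hab
    · exact ⟨x, by simp, hxy, hxw, by rintro d (rfl | rfl | rfl) <;> simp⟩
    · exact ⟨y, by simp, hyw, hxy.symm, by rintro d (rfl | rfl | rfl) <;> simp⟩
    · exact ⟨x, by simp, hxw, hxy, by rintro d (rfl | rfl | rfl) <;> simp⟩
    · exact absurd rfl hab
  -- an element fixing two points of `A` and acting on `A` fixes all points of `A`
  have hfixall : ∀ (g : G) (X : Set Ω) (a b : Ω), X.ncard = 3 → a ∈ X → b ∈ X → a ≠ b →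
      (∀ β ∈ X, g • β ∈ X) → g • a = a → g • b = b → X ⊆ fixedBy Ω g := by
    intro g X a b hX ha hb hab hg hga hgb d hd
    obtain ⟨c, hc, hca, hcb, hall⟩ := hthree X a b hX ha hb hab
    have hgc : g • c = c := by
      rcases hall _ (hg c hc) with h | h | h
      · exfalso
        rw [← hga] at h
        exact hca (MulAction.injective g h)
      · exfalso
        rw [← hgb] at h
        exact hcb (MulAction.injective g h)
      · exact h
    rw [mem_fixedBy]
    rcases hall d hd with rfl | rfl | rfl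
    · exact hga
    · exact hgb
    · exact hgc
  have hAB : ∀ β, β ∈ A → β ∈ B → β = α := by
    intro β hβA hβB
    by_contra hβ
    apply hne
    have h1 : A ⊆ B := hfixall t A α β (by rw [hAc, hf3]) hαA hβA (Ne.symm hβ)
      (fun γ hγ => hpres t z (hzcomm t ht) γ hγ) hαB hβB
    exact (Set.eq_of_subset_of_ncard_le h1 (by rw [hAc, hBc]) (Set.toFinite _)).symm
  -- points of `A` and `B`
  obtain ⟨β, hβA, hβα⟩ : ∃ β ∈ A, β ≠ α := by
    obtain ⟨x, y, w, hxy, hxw, hyw, hAeq⟩ := Set.ncard_eq_three.mp (hAc.trans hf3)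
    by_cases h : x = α
    · exact ⟨y, by rw [hAeq]; simp, by rw [← h]; exact hxy.symm⟩
    · exact ⟨x, by rw [hAeq]; simp, h⟩
  obtain ⟨β', hβ'B, hβ'α⟩ : ∃ β ∈ B, β ≠ α := by
    obtain ⟨x, y, w, hxy, hxw, hyw, hBeq⟩ := Set.ncard_eq_three.mp (hBc.trans hf3)
    by_cases h : x = α
    · exact ⟨y, by rw [hBeq]; simp, by rw [← h]; exact hxy.symm⟩
    · exact ⟨x, by rw [hBeq]; simp, h⟩
  have hzt0 : z ≠ ⟨t, ht⟩ := by
    intro h
    apply hne
    rw [hA, h]
  refine ⟨hα', ?_, ?_, ⟨⟨t, ht⟩, z, by rw [Subgroup.orderOf_mk, ht2], hz2, hzt0,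
    fun s => Subgroup.mem_center_iff.mp hzc s⟩⟩
  · intro γ hγ
    exact hAB γ (hγ z z.2) (hγ t ht)
  -- the centralizer
  refine ⟨⟨t, ht⟩, by rw [Subgroup.orderOf_mk, ht2], ?_⟩
  set t' : (S : Subgroup G) := ⟨t, ht⟩ with ht'
  set C := Subgroup.centralizer ({t'} : Set (S : Subgroup G)) with hC
  have hCt : ∀ c ∈ C, (c : G) * t = t * c := by
    intro c hc
    have h1 := Subgroup.mem_centralizer_singleton_iff.mp hc
    exact congrArg Subtype.val h1
  have hle : Nat.card C ≤ 4 := by
    have hmapA : ∀ s ∈ (S : Subgroup G), s • β ∈ A \ {α} := by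
      intro s hs
      refine ⟨hpres s z (hzcomm s hs) β hβA, fun h => hβα ?_⟩
      have h' : s • β = α := h
      rw [← hα' s hs] at h'
      exact MulAction.injective s h'
    have hmapB : ∀ c ∈ C, (c : G) • β' ∈ B \ {α} := by
      intro c hc
      refine ⟨hpres c t (hCt c hc) β' hβ'B, fun h => hβ'α ?_⟩
      have h' : (c : G) • β' = α := h
      rw [← hα' c c.2] at h'
      exact MulAction.injective (c : G) h'
    let φ : C → ↥(A \ {α}) × ↥(B \ {α}) := fun c =>
      (⟨((c : (S : Subgroup G)) : G) • β, hmapA _ (c : (S : Subgroup G)).2⟩,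
        ⟨((c : (S : Subgroup G)) : G) • β', hmapB _ c.2⟩)
    have hinj : Function.Injective φ := by
      intro c d hcd
      have h1 : ((c : (S : Subgroup G)) : G) • β = ((d : (S : Subgroup G)) : G) • β :=
        congrArg (fun w => (w.1 : Ω)) hcd
      have h2 : ((c : (S : Subgroup G)) : G) • β' = ((d : (S : Subgroup G)) : G) • β' :=
        congrArg (fun w => (w.2 : Ω)) hcd
      set e : (S : Subgroup G) := (d : (S : Subgroup G))⁻¹ * c with he
      have he1 : (e : G) • β = β := by
        rw [he, Subgroup.coe_mul, mul_smul, h1, Subgroup.coe_inv, inv_smul_smul]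
      have he2 : (e : G) • β' = β' := by
        rw [he, Subgroup.coe_mul, mul_smul, h2, Subgroup.coe_inv, inv_smul_smul]
      have he3 : e = 1 := by
        by_contra hne1
        obtain ⟨u, hu, hu2⟩ := exists_involution_pow hne1 ((IsPGroup.iff_orderOf.mp S.isPGroup') e)
        have hu2' : orderOf (u : G) = 2 := by rw [Subgroup.orderOf_coe, hu2]
        have hfixpt : ∀ γ : Ω, (e : G) • γ = γ → (u : G) • γ = γ := by
          intro γ hγ
          have h3 : Subgroup.zpowers e ≤ stabilizer (S : Subgroup G) γ := by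
            rw [Subgroup.zpowers_le]
            exact hγ
          exact h3 hu
        have h3 : A ⊆ fixedBy Ω (u : G) := hfixall u A α β (by rw [hAc, hf3]) hαA hβA (Ne.symm hβα)
          (fun γ hγ => hpres u z (hzcomm u u.2) γ hγ) (hα' u u.2) (hfixpt β he1)
        have h4 : A = fixedBy Ω (u : G) :=
          Set.eq_of_subset_of_ncard_le h3 (by rw [hAc, hfix _ hu2']) (Set.toFinite _)
        have h5 : β' ∈ A := by
          rw [h4]
          exact hfixpt β' he2
        exact hβ'α (hAB β' h5 hβ'B)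
      apply Subtype.ext
      rw [he, inv_mul_eq_one] at he3
      exact he3.symm
    have h1 := Nat.card_le_card_of_injective φ hinj
    rw [Nat.card_prod] at h1
    have h2 : Nat.card ↥(A \ {α}) = 2 := by
      have h3 : Nat.card ↥(A \ {α}) = (A \ {α}).ncard := rfl
      rw [h3, Set.ncard_sdiff_singleton_of_mem hαA, hAc, hf3]
    have h3 : Nat.card ↥(B \ {α}) = 2 := by
      have h3 : Nat.card ↥(B \ {α}) = (B \ {α}).ncard := rfl
      rw [h3, Set.ncard_sdiff_singleton_of_mem hαB, hBc, hf3]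
    rw [h2, h3] at h1
    exact h1
  -- at least three elements and a power of two
  obtain ⟨k, hk⟩ := IsPGroup.iff_card.mp (S.isPGroup'.to_subgroup C)
  have h3 : 2 < Nat.card C := by
    have hzC : z ∈ C := Subgroup.mem_centralizer_singleton_iff.mpr
      (Subgroup.mem_center_iff.mp hzc t').symm
    have htC : t' ∈ C := Subgroup.mem_centralizer_singleton_iff.mpr rfl
    have hzt : z ≠ t' := hzt0
    have hz1 : z ≠ 1 := by
      rintro rfl
      rw [orderOf_one] at hz2
      norm_num at hz2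
    have ht1 : t' ≠ 1 := by
      intro h
      have : orderOf t' = 2 := by rw [Subgroup.orderOf_mk, ht2]
      rw [h, orderOf_one] at this
      norm_num at this
    have hsub : ({1, z, t'} : Set (S : Subgroup G)) ⊆ (C : Set (S : Subgroup G)) := by
      rintro w (rfl | rfl | rfl)
      · exact one_mem C
      · exact hzC
      · exact htC
    have h4 := Set.ncard_le_ncard hsub (Set.toFinite _)
    rw [Set.ncard_eq_three.mpr ⟨1, z, t', hz1.symm, ht1.symm, hzt, rfl⟩] at h4
    have h5 : (C : Set (S : Subgroup G)).ncard = Nat.card C := rfl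
    omega
  have h4 : k = 2 := by
    rcases Nat.lt_or_ge k 2 with h | h
    · interval_cases k <;> omega
    · by_contra hne2
      have : 2 ^ 3 ≤ 2 ^ k := Nat.pow_le_pow_right (by norm_num) (by omega)
      omega
  rw [hk, h4]
  norm_num

/-- In case B the Sylow subgroup is dihedral or quasi-dihedral. -/
theorem CaseB.dihedral_or {S : Sylow 2 G} {α : Ω} (h : CaseB S α) :
    (∃ n : ℕ, 2 ≤ n ∧ Nonempty ((S : Subgroup G) ≃* DihedralGroup n)) ∨ Cfsg.IsQuasiDihedral (S : Subgroup G) := by
  obtain ⟨t, ht2, ht4⟩ := h.four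
  have h4 : 4 ≤ Nat.card (S : Subgroup G) := by
    rw [← ht4]
    exact Nat.card_le_card_of_injective _ Subtype.val_injective
  rcases Cfsg.Agent.S3224.result S.isPGroup' t ht2 ht4 with ⟨n, ⟨e⟩⟩ | h1 | h1
  · left
    refine ⟨n, ?_, ⟨e⟩⟩
    have h2 := Nat.card_congr e.toEquiv
    rw [DihedralGroup.nat_card] at h2
    omega
  · exact Or.inr h1
  · left
    refine ⟨2, le_rfl, ?_⟩
    have h2 : ¬ IsCyclic (S : Subgroup G) := by
      intro hc
      obtain ⟨t, z, ht, hz, hzt, -⟩ := h.two
      classical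
      let _ : Fintype (S : Subgroup G) := Fintype.ofFinite _
      have h3 := IsCyclic.card_orderOf_eq_totient (α := (S : Subgroup G)) (d := 2)
        (by rw [← Nat.card_eq_fintype_card, h1]; norm_num)
      rw [Nat.totient_two] at h3
      have h4 := Finset.card_eq_one.mp h3
      obtain ⟨a, ha⟩ := h4
      have h5 : t ∈ ({a} : Finset (S : Subgroup G)) := by
        rw [← ha]
        simp [ht]
      have h6 : z ∈ ({a} : Finset (S : Subgroup G)) := by
        rw [← ha]
        simp [hz]
      rw [Finset.mem_singleton] at h5 h6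
      exact hzt (h6.trans h5.symm)
    have h3 : Monoid.exponent (S : Subgroup G) = 2 :=
      (not_isCyclic_iff_exponent_eq_prime Nat.prime_two (by rw [h1]; norm_num)).mp h2
    have h4 : IsKleinFour (S : Subgroup G) := ⟨h1, h3⟩
    exact IsKleinFour.nonempty_mulEquiv

end Cfsg.Agent.H103.ThreeP
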